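import Mathlib

/-!
# Project APQ (= S4150): interface

For `m ≥ 5` there are primes `m/2 ≤ p < q ≤ m` such that any `x`, `y` of orders `p`, `q` in
`A_m` generate a subgroup isomorphic to some `A_d`, `d ≥ 5`.

Every package is a closed `def PkgX : Prop` (universe polymorphic in `β : Type u` where a type
is quantified).  `Main.lean` assembles them.
-/

set_option autoImplicit false

namespace Cfsg.Agent.Lib.Helper69.APQ

open Equiv

universe u

/-- The conclusion of S4150 for one pair of elements. -/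
def Concl (m : ℕ) (x y : alternatingGroup (Fin m)) : Prop :=
  ∃ d : ℕ, 5 ≤ d ∧
    Nonempty (Subgroup.closure ({x, y} : Set (alternatingGroup (Fin m))) ≃*
      alternatingGroup (Fin d))

/-- The supports of `x` and `y` cover `β`. -/
def Full {β : Type u} (x y : Perm β) : Prop := ∀ b : β, x b ≠ b ∨ y b ≠ b

/-- `x` and `y` generate (at least) the alternating group. -/
def Gen {β : Type u} [Fintype β] [DecidableEq β] (x y : Perm β) : Prop :=
  alternatingGroup β ≤ Subgroup.closure ({x, y} : Set (Perm β))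

/-- The shape of the conclusion on an arbitrary finite type. -/
def IsoAlt {β : Type u} (x y : Perm β) : Prop :=
  ∃ d : ℕ, 5 ≤ d ∧
    Nonempty (Subgroup.closure ({x, y} : Set (Perm β)) ≃* alternatingGroup (Fin d))

/-- Pointwise stabiliser of two points. -/
def Stab2 {β : Type u} (G : Subgroup (Perm β)) (a b : β) : Subgroup G :=
  MulAction.stabilizer G a ⊓ MulAction.stabilizer G b

/-! ## Number theory -/

/-- [NT] for `m ≥ 17` there are primes `p`, `q` with `m < 2p`, `p + 4 ≤ q ≤ m`. -/
def PkgNT : Prop :=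
  ∀ m : ℕ, 17 ≤ m → ∃ p q : ℕ, p.Prime ∧ q.Prime ∧ m < 2 * p ∧ p + 4 ≤ q ∧ q ≤ m

/-- [NTSMALL] the same below `4100` (finite chain of prime pairs). -/
def PkgNTSmall : Prop :=
  ∀ m : ℕ, 17 ≤ m → m < 4100 →
    ∃ p q : ℕ, p.Prime ∧ q.Prime ∧ m < 2 * p ∧ p + 4 ≤ q ∧ q ≤ m

/-- [NTBIG] three primes in `(n, 2n]` for `n ≥ 2048`. -/
def PkgNTBig : Prop :=
  ∀ n : ℕ, 2048 ≤ n → ∃ p₁ p₂ p₃ : ℕ, p₁.Prime ∧ p₂.Prime ∧ p₃.Prime ∧
    n < p₁ ∧ p₁ < p₂ ∧ p₂ < p₃ ∧ p₃ ≤ 2 * n

/-- [NTINEQ] the main inequality of Bertrand's postulate with an extra factor `(2n)²`. -/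
def PkgNTIneq : Prop :=
  ∀ n : ℕ, 2048 ≤ n →
    n * ((2 * n) ^ Nat.sqrt (2 * n) * 4 ^ (2 * n / 3) * (2 * n) ^ 2) ≤ 4 ^ n

/-- [NTBINOM] with at most two primes in `(n, 2n]` the central binomial coefficient is small. -/
def PkgNTBinom : Prop :=
  ∀ n : ℕ, 2 < n →
    (∀ p₁ p₂ p₃ : ℕ, p₁.Prime → p₂.Prime → p₃.Prime → n < p₁ → p₁ < p₂ → p₂ < p₃ →
      p₃ ≤ 2 * n → False) →
    Nat.centralBinom n ≤ (2 * n) ^ Nat.sqrt (2 * n) * 4 ^ (2 * n / 3) * (2 * n) ^ 2

/-! ## Permutations of prime order, restriction to the support -/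

/-- [CT] an element of prime order `p` of `S_m`, `m ≤ 2p`, is a `p`-cycle or (`m = 2p`) a
product of two `p`-cycles. -/
def PkgCT : Prop :=
  ∀ (m : ℕ) (x : Perm (Fin m)) (p : ℕ), p.Prime → orderOf x = p → m ≤ 2 * p →
    x.cycleType = {p} ∨ (m = 2 * p ∧ x.cycleType = {p, p})

/-- [RESTR] restriction of two elements of `A_m` to the union `s` of their supports. -/
def PkgRestr : Prop :=
  ∀ (m : ℕ) (x y : alternatingGroup (Fin m)),
    ∃ (s : Finset (Fin m)) (x' y' : Perm ↥s),
      x'.cycleType = (x : Perm (Fin m)).cycleType ∧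
      y'.cycleType = (y : Perm (Fin m)).cycleType ∧
      Full x' y' ∧
      Nonempty (Subgroup.closure ({x, y} : Set (alternatingGroup (Fin m))) ≃*
        Subgroup.closure ({x', y'} : Set (Perm ↥s)))

/-- [FIN] if two even permutations generate at least `Alt(β)` then the group they generate is
isomorphic to `A_d`, `d = |β|`. -/
def PkgFin : Prop :=
  ∀ {β : Type u} [Fintype β] [DecidableEq β] (x y : Perm β),
    x ∈ alternatingGroup β → y ∈ alternatingGroup β → Gen x y →
    Nonempty (Subgroup.closure ({x, y} : Set (Perm β)) ≃*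
      alternatingGroup (Fin (Fintype.card β)))

/-! ## Primitivity and the generic cases -/

/-- [PRIM] a `q`-cycle `y` with `|β| < 2q` and every point either moved by `y` or carried by
a power of `x` into the support of `y`: `⟨x, y⟩` is primitive. -/
def PkgPrim : Prop :=
  ∀ {β : Type u} [Fintype β] [DecidableEq β] (x y : Perm β) (q : ℕ), q.Prime →
    y.cycleType = {q} → Fintype.card β < 2 * q →
    (∀ b : β, y b ≠ b ∨ ∃ k : ℕ, y ((x ^ k) b) ≠ (x ^ k) b) →
    MulAction.IsPreprimitive (Subgroup.closure ({x, y} : Set (Perm β))) β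

/-- [CASEA] `x` a `p`-cycle fixing at least three points of `β`. -/
def PkgCaseA : Prop :=
  ∀ {β : Type u} [Fintype β] [DecidableEq β] (x y : Perm β) (p q : ℕ),
    p.Prime → q.Prime → p < q → x.cycleType = {p} → y.cycleType = {q} → Full x y →
    Fintype.card β ≤ 2 * p → p + 3 ≤ Fintype.card β → Gen x y

/-- [CASEB] `x` a product of two `p`-cycles, `|β| = 2p`, `y` a `q`-cycle fixing at least three
points. -/
def PkgCaseB : Prop :=
  ∀ {β : Type u} [Fintype β] [DecidableEq β] (x y : Perm β) (p q : ℕ),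
    p.Prime → q.Prime → p < q → x.cycleType = {p, p} → y.cycleType = {q} →
    Fintype.card β = 2 * p → q + 3 ≤ Fintype.card β → Gen x y

/-- [CASE3] `x` a `3`-cycle, `y` a `5`-cycle, `|β| ≤ 6`. -/
def PkgCase3 : Prop :=
  ∀ {β : Type u} [Fintype β] [DecidableEq β] (x y : Perm β),
    x.cycleType = {3} → y.cycleType = {5} → Full x y → Fintype.card β ≤ 6 → Gen x y

/-! ## The twin cases `|β| = q = p + 2` -/

/-- [T3] a primitive group of degree `p + 2` containing a `p`-cycle is `3`-transitive. -/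
def PkgT3 : Prop :=
  ∀ {β : Type u} [Fintype β] [DecidableEq β] (G : Subgroup (Perm β)) (p : ℕ), p.Prime →
    Fintype.card β = p + 2 → MulAction.IsPreprimitive G β → (∃ g ∈ G, g.cycleType = {p}) →
    MulAction.IsMultiplyPretransitive G β 3

/-- [NSOLV] a `3`-transitive group of odd degree `≥ 5` is not solvable. -/
def PkgNSolv : Prop :=
  ∀ {β : Type u} [Fintype β] [DecidableEq β] (G : Subgroup (Perm β)),
    Odd (Fintype.card β) → 5 ≤ Fintype.card β → MulAction.IsMultiplyPretransitive G β 3 →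
    ¬ Group.IsSolvable G

/-- [TWIN7] a transitive group of degree `7` containing a `5`-cycle contains `Alt`. -/
def PkgTwin7 : Prop :=
  ∀ {β : Type u} [Fintype β] [DecidableEq β] (G : Subgroup (Perm β)),
    Fintype.card β = 7 → MulAction.IsPretransitive G β → (∃ g ∈ G, g.cycleType = {5}) →
    alternatingGroup β ≤ G

/-- [CASET7] -/
def PkgCaseT7 : Prop :=
  ∀ {β : Type u} [Fintype β] [DecidableEq β] (x y : Perm β),
    Fintype.card β = 7 → x.cycleType = {5} → y.cycleType = {7} → Gen x y

/-- [T13K1] Burnside on the stabiliser of the two fixed points of an `11`-cycle. -/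
def PkgT13K1 : Prop :=
  ∀ {β : Type u} [Fintype β] [DecidableEq β] (G : Subgroup (Perm β)),
    Fintype.card β = 13 → MulAction.IsMultiplyPretransitive G β 3 →
    ∀ g ∈ G, g.cycleType = {11} → ∀ a b : β, a ≠ b → g a = a → g b = b →
      MulAction.IsMultiplyPretransitive G β 4 ∨ Group.IsSolvable ↥(Stab2 G a b)

/-- [T13K2] a solvable two-point stabiliser has order `11` or `55`. -/
def PkgT13K2 : Prop :=
  ∀ {β : Type u} [Fintype β] [DecidableEq β] (G : Subgroup (Perm β)),
    Fintype.card β = 13 → G ≤ alternatingGroup β →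
    ∀ g ∈ G, g.cycleType = {11} → ∀ a b : β, a ≠ b → g a = a → g b = b →
      Group.IsSolvable ↥(Stab2 G a b) →
      Nat.card ↥(Stab2 G a b) = 11 ∨ Nat.card ↥(Stab2 G a b) = 55

/-- [T13K3] order of a `2`-transitive group. -/
def PkgT13K3 : Prop :=
  ∀ {β : Type u} [Fintype β] [DecidableEq β] (G : Subgroup (Perm β)),
    MulAction.IsMultiplyPretransitive G β 2 → ∀ a b : β, a ≠ b →
      Nat.card G = Fintype.card β * (Fintype.card β - 1) * Nat.card ↥(Stab2 G a b)

/-- [T13S] no subgroup of `S_13` has order `8580 = 13 · 12 · 55` (Sylow `13`-count). -/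
def PkgT13S : Prop :=
  ∀ {β : Type u} [Fintype β] [DecidableEq β] (G : Subgroup (Perm β)),
    Fintype.card β = 13 → Nat.card G = 8580 → False

/-- [T13F] no `3`-transitive group of degree `13` has order `1716 = 13 · 12 · 11`. -/
def PkgT13F : Prop :=
  ∀ {β : Type u} [Fintype β] [DecidableEq β] (G : Subgroup (Perm β)),
    Fintype.card β = 13 → MulAction.IsMultiplyPretransitive G β 3 → Nat.card G = 1716 → False

/-- [TWIN13] a transitive subgroup of `Alt` of degree `13` containing an `11`-cycle is `Alt`. -/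
def PkgTwin13 : Prop :=
  ∀ {β : Type u} [Fintype β] [DecidableEq β] (G : Subgroup (Perm β)),
    Fintype.card β = 13 → G ≤ alternatingGroup β → MulAction.IsPretransitive G β →
    (∃ g ∈ G, g.cycleType = {11}) → alternatingGroup β ≤ G

/-- [CASET13] -/
def PkgCaseT13 : Prop :=
  ∀ {β : Type u} [Fintype β] [DecidableEq β] (x y : Perm β),
    Fintype.card β = 13 → x.cycleType = {11} → y.cycleType = {13} → Gen x y

/-! ## Degree 6, `x` of type `3²` -/

/-- [M6A] a proper subgroup of `A_6` has order at most `60`. -/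
def PkgM6A : Prop :=
  ∀ {β : Type u} [Fintype β] [DecidableEq β] (H : Subgroup (Perm β)),
    Fintype.card β = 6 → H ≤ alternatingGroup β → H = alternatingGroup β ∨ Nat.card H ≤ 60

/-- [M6B] a `2`-transitive group of degree `6` and order at most `60` is `A_5`. -/
def PkgM6B : Prop :=
  ∀ {β : Type u} [Fintype β] [DecidableEq β] (H : Subgroup (Perm β)),
    Fintype.card β = 6 → MulAction.IsMultiplyPretransitive H β 2 → Nat.card H ≤ 60 →
    Nonempty (H ≃* alternatingGroup (Fin 5))

/-- [M6C] type `3²` and a `5`-cycle generate a `2`-transitive group of degree `6`. -/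
def PkgM6C : Prop :=
  ∀ {β : Type u} [Fintype β] [DecidableEq β] (x y : Perm β),
    Fintype.card β = 6 → x.cycleType = {3, 3} → y.cycleType = {5} →
    MulAction.IsMultiplyPretransitive (Subgroup.closure ({x, y} : Set (Perm β))) β 2

/-- [M6] -/
def PkgM6 : Prop :=
  ∀ {β : Type u} [Fintype β] [DecidableEq β] (x y : Perm β),
    Fintype.card β = 6 → x.cycleType = {3, 3} → y.cycleType = {5} → IsoAlt x y

end Cfsg.Agent.Lib.Helper69.APQ
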