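import Cfsg.Agent.Lib.Helper69.APQ.Defs
import Cfsg.Agent.S0678
import Cfsg.Agent.S4220

/-!
# APQ: glue packages [TWIN7], [CT7], [T13ASM], [CT13], [M6ASM]
-/

set_option autoImplicit false

namespace Cfsg.Agent.Lib.Helper69.APQ

open Equiv

universe u

/-- a permutation whose cycle type is `{n}` with `n = |β|` moves every point. -/
theorem moves_all_of_cycleType {β : Type u} [Fintype β] [DecidableEq β] (y : Perm β) (n : ℕ)
    (hy : y.cycleType = {n}) (hcard : Fintype.card β = n) (b : β) : y b ≠ b := by
  have hsupp : y.support.card = n := by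
    have := Equiv.Perm.sum_cycleType y
    rw [hy] at this
    simpa using this.symm
  have huniv : y.support = Finset.univ :=
    Finset.eq_univ_of_card _ (by rw [hsupp, hcard])
  have : b ∈ y.support := by rw [huniv]; exact Finset.mem_univ b
  exact Equiv.Perm.mem_support.mp this

/-- an element of cycle type `{n}`, `n` odd, is even. -/
theorem mem_alt_of_cycleType_single {β : Type u} [Fintype β] [DecidableEq β] (y : Perm β)
    (n : ℕ) (hn : Odd n) (hy : y.cycleType = {n}) : y ∈ alternatingGroup β := by
  rw [Equiv.Perm.mem_alternatingGroup, Equiv.Perm.sign_of_cycleType, hy]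
  have h1 : ((-1 : ℤˣ)) ^ (n + 1) = 1 := (hn.add_one).neg_one_pow
  simp [h1]

/-- an element of cycle type `{n, n}` is even. -/
theorem mem_alt_of_cycleType_pair {β : Type u} [Fintype β] [DecidableEq β] (y : Perm β)
    (n : ℕ) (hy : y.cycleType = {n, n}) : y ∈ alternatingGroup β := by
  rw [Equiv.Perm.mem_alternatingGroup, Equiv.Perm.sign_of_cycleType, hy]
  have h1 : ((-1 : ℤˣ)) ^ (n + n + 2) = 1 := Even.neg_one_pow ⟨n + 1, by ring⟩
  simp [h1]

/-- the order of an element of cycle type `{n}`. -/
theorem orderOf_of_cycleType_single {β : Type u} [Fintype β] [DecidableEq β] (y : Perm β)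
    (n : ℕ) (hy : y.cycleType = {n}) : orderOf y = n := by
  rw [← Equiv.Perm.lcm_cycleType, hy]; simp

/-- [TWIN7] -/
theorem pkgTwin7_of (h3 : PkgT3.{u}) (hN : PkgNSolv.{u}) : PkgTwin7.{u} := by
  intro β _ _ G hcard htr hg
  by_contra hA
  have := htr
  have hprim : MulAction.IsPreprimitive G β :=
    MulAction.IsPreprimitive.of_prime_card (by
      rw [Nat.card_eq_fintype_card, hcard]; norm_num)
  have h3t := h3 G 5 (by norm_num) (by omega) hprim hg
  have hns := hN G (by rw [hcard]; decide) (by omega) h3t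
  obtain ⟨h168, -⟩ := Cfsg.Agent.S0678.result hcard G hns hA
  obtain ⟨g, hgG, hgt⟩ := hg
  have ho : orderOf g = 5 := orderOf_of_cycleType_single g 5 hgt
  have ho' : orderOf (⟨g, hgG⟩ : G) = 5 := by
    rw [← ho]; exact Subgroup.orderOf_mk g hgG
  have hdvd : 5 ∣ Nat.card G := ho' ▸ orderOf_dvd_natCard _
  rw [h168] at hdvd
  omega

/-- [CT7] -/
theorem pkgCaseT7_of (hP : PkgPrim.{u}) (hT : PkgTwin7.{u}) : PkgCaseT7.{u} := by
  intro β _ _ x y hcard hx hy
  have hall := moves_all_of_cycleType y 7 hy hcard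
  have hprim := hP x y 7 (by norm_num) hy (by omega) (fun b => Or.inl (hall b))
  have htr : MulAction.IsPretransitive (Subgroup.closure ({x, y} : Set (Perm β))) β :=
    hprim.toIsPretransitive
  exact hT _ hcard htr ⟨x, Subgroup.subset_closure (by simp), hx⟩

/-- [T13ASM] -/
theorem pkgTwin13_of (h3 : PkgT3.{u}) (hK1 : PkgT13K1.{u}) (hK2 : PkgT13K2.{u})
    (hK3 : PkgT13K3.{u}) (hS : PkgT13S.{u}) (hF : PkgT13F.{u}) : PkgTwin13.{u} := by
  intro β _ _ G hcard hGA htr hg
  have := htr
  have hprim : MulAction.IsPreprimitive G β :=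
    MulAction.IsPreprimitive.of_prime_card (by
      rw [Nat.card_eq_fintype_card, hcard]; norm_num)
  have h3t := h3 G 11 (by norm_num) (by omega) hprim hg
  obtain ⟨g, hgG, hgt⟩ := hg
  have hsupp : g.support.card = 11 := by
    have := Equiv.Perm.sum_cycleType g
    rw [hgt] at this
    simpa using this.symm
  have hfix : (g.supportᶜ).card = 2 := by
    rw [Finset.card_compl, hcard, hsupp]
  obtain ⟨a, b, hab, hset⟩ := Finset.card_eq_two.mp hfix
  have ha : g a = a := by
    have : a ∈ g.supportᶜ := by rw [hset]; simp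
    simpa using this
  have hb : g b = b := by
    have : b ∈ g.supportᶜ := by rw [hset]; simp
    simpa using this
  rcases hK1 G hcard h3t g hgG hgt a b hab ha hb with h4 | hsolv
  · exact Cfsg.Agent.S4220.result G (k := 2) (p := 5) (r := 3) (by norm_num) (by omega)
      (by omega) (by omega) (by omega) (by omega) h4
  · exfalso
    have h2t : MulAction.IsMultiplyPretransitive G β 2 :=
      MulAction.isMultiplyPretransitive_of_le (n := 3) (by norm_num) (by
        rw [Nat.card_eq_fintype_card, hcard]; norm_num)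
    have hord := hK3 G h2t a b hab
    rw [hcard] at hord
    rcases hK2 G hcard hGA g hgG hgt a b hab ha hb hsolv with h11 | h55
    · exact hF G hcard h3t (by rw [hord, h11])
    · exact hS G hcard (by rw [hord, h55])

/-- [CT13] -/
theorem pkgCaseT13_of (hP : PkgPrim.{u}) (hT : PkgTwin13.{u}) : PkgCaseT13.{u} := by
  intro β _ _ x y hcard hx hy
  have hall := moves_all_of_cycleType y 13 hy hcard
  have hprim := hP x y 13 (by norm_num) hy (by omega) (fun b => Or.inl (hall b))
  have htr : MulAction.IsPretransitive (Subgroup.closure ({x, y} : Set (Perm β))) β :=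
    hprim.toIsPretransitive
  have hle : Subgroup.closure ({x, y} : Set (Perm β)) ≤ alternatingGroup β := by
    rw [Subgroup.closure_le]
    intro z hz
    rcases hz with rfl | rfl
    · exact mem_alt_of_cycleType_single _ 11 (by decide) hx
    · exact mem_alt_of_cycleType_single _ 13 (by decide) hy
  exact hT _ hcard hle htr ⟨x, Subgroup.subset_closure (by simp), hx⟩

/-- [M6ASM] -/
theorem pkgM6_of (hA : PkgM6A.{u}) (hB : PkgM6B.{u}) (hC : PkgM6C.{u}) (hF : PkgFin.{u}) :
    PkgM6.{u} := by
  intro β _ _ x y hcard hx hy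
  have hxA : x ∈ alternatingGroup β := mem_alt_of_cycleType_pair x 3 hx
  have hyA : y ∈ alternatingGroup β := mem_alt_of_cycleType_single y 5 (by decide) hy
  have hle : Subgroup.closure ({x, y} : Set (Perm β)) ≤ alternatingGroup β := by
    rw [Subgroup.closure_le]
    intro z hz
    rcases hz with rfl | rfl
    · exact hxA
    · exact hyA
  rcases hA _ hcard hle with heq | h60
  · obtain ⟨e⟩ := hF x y hxA hyA (by unfold Gen; rw [heq])
    exact ⟨Fintype.card β, by omega, ⟨e⟩⟩
  · obtain ⟨e⟩ := hB _ hcard (hC x y hcard hx hy) h60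
    exact ⟨5, le_refl 5, ⟨e⟩⟩

end Cfsg.Agent.Lib.Helper69.APQ
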