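import Cfsg.Agent.Lib.Helper69.APQ.Defs

/-!
# Project APQ (= S4150): top-level assembly
-/

set_option autoImplicit false

namespace Cfsg.Agent.Lib.Helper69.APQ

open Equiv Equiv.Perm

/-- The sign depends only on the cycle type. -/
theorem mem_alt_of_cycleType_eq {α β : Type*} [Fintype α] [DecidableEq α] [Fintype β]
    [DecidableEq β] {x : Perm α} {x' : Perm β} (h : x'.cycleType = x.cycleType)
    (hx : x ∈ alternatingGroup α) : x' ∈ alternatingGroup β := by
  rw [Equiv.Perm.mem_alternatingGroup] at hx ⊢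
  rw [Equiv.Perm.sign_of_cycleType] at hx ⊢
  rw [h]; exact hx

theorem le_card_of_cycleType {β : Type*} [Fintype β] [DecidableEq β] {y : Perm β} {q : ℕ}
    (h : y.cycleType = {q}) : q ≤ Fintype.card β := by
  have h1 := Equiv.Perm.sum_cycleType y
  rw [h] at h1
  simp only [Multiset.sum_singleton] at h1
  rw [h1]; exact Finset.card_le_univ _

theorem le_card_of_cycleType2 {β : Type*} [Fintype β] [DecidableEq β] {y : Perm β} {p : ℕ}
    (h : y.cycleType = {p, p}) : 2 * p ≤ Fintype.card β := by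
  have h1 := Equiv.Perm.sum_cycleType y
  rw [h] at h1
  have h2 : ({p, p} : Multiset ℕ).sum = 2 * p := by
    rw [Multiset.insert_eq_cons, Multiset.sum_cons, Multiset.sum_singleton]; ring
  rw [h2] at h1
  rw [h1]; exact Finset.card_le_univ _

theorem card_coe_le (m : ℕ) (s : Finset (Fin m)) : Fintype.card ↥s ≤ m := by
  rw [Fintype.card_coe]
  calc s.card ≤ Fintype.card (Fin m) := Finset.card_le_univ s
    _ = m := Fintype.card_fin m

/-- Reduction to the union of the supports. -/
theorem core (hCT : PkgCT) (hR : PkgRestr) (m p q : ℕ) (hp : p.Prime) (hq : q.Prime)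
    (hpq : p < q) (hm : m ≤ 2 * p)
    (hdisp : ∀ (s : Finset (Fin m)) (x' y' : Perm ↥s), x' ∈ alternatingGroup ↥s →
      y' ∈ alternatingGroup ↥s → Full x' y' → y'.cycleType = {q} →
      (x'.cycleType = {p} ∨ (m = 2 * p ∧ x'.cycleType = {p, p})) → IsoAlt x' y') :
    ∀ x y : alternatingGroup (Fin m), orderOf x = p → orderOf y = q → Concl m x y := by
  intro x y hx hy
  have hx' : orderOf (x : Perm (Fin m)) = p := by rw [Subgroup.orderOf_coe]; exact hx
  have hy' : orderOf (y : Perm (Fin m)) = q := by rw [Subgroup.orderOf_coe]; exact hy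
  have hcx := hCT m x p hp hx' hm
  have hcy : (y : Perm (Fin m)).cycleType = {q} := by
    rcases hCT m y q hq hy' (by omega) with h | ⟨h, _⟩
    · exact h
    · omega
  obtain ⟨s, x', y', h1, h2, hF, ⟨e⟩⟩ := hR m x y
  have ex := mem_alt_of_cycleType_eq h1 x.2
  have ey := mem_alt_of_cycleType_eq h2 y.2
  obtain ⟨d, hd, ⟨e'⟩⟩ := hdisp s x' y' ex ey hF (h2.trans hcy) (by rw [h1]; exact hcx)
  exact ⟨d, hd, ⟨e.trans e'⟩⟩

theorem disp_A (hA : PkgCaseA.{0}) (hF : PkgFin.{0}) {β : Type} [Fintype β] [DecidableEq β]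
    (x y : Perm β) (p q : ℕ) (hp : p.Prime) (hq : q.Prime) (hpq : p < q)
    (ex : x ∈ alternatingGroup β) (ey : y ∈ alternatingGroup β) (hFull : Full x y)
    (hx : x.cycleType = {p}) (hy : y.cycleType = {q}) (h1 : Fintype.card β ≤ 2 * p)
    (h2 : p + 3 ≤ Fintype.card β) : IsoAlt x y :=
  ⟨Fintype.card β, by have := hp.two_le; omega,
    hF x y ex ey (hA x y p q hp hq hpq hx hy hFull h1 h2)⟩

theorem disp_B (hB : PkgCaseB.{0}) (hF : PkgFin.{0}) {β : Type} [Fintype β] [DecidableEq β]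
    (x y : Perm β) (p q : ℕ) (hp : p.Prime) (hq : q.Prime) (hpq : p < q)
    (ex : x ∈ alternatingGroup β) (ey : y ∈ alternatingGroup β)
    (hx : x.cycleType = {p, p}) (hy : y.cycleType = {q}) (h1 : Fintype.card β = 2 * p)
    (h2 : q + 3 ≤ Fintype.card β) : IsoAlt x y :=
  ⟨Fintype.card β, by have := hq.two_le; omega,
    hF x y ex ey (hB x y p q hp hq hpq hx hy h1 h2)⟩

/-- The generic case: `m < 2p`, `p + 4 ≤ q ≤ m`. -/
theorem caseGen (hCT : PkgCT) (hR : PkgRestr) (hF : PkgFin.{0}) (hA : PkgCaseA.{0})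
    (m p q : ℕ) (hp : p.Prime) (hq : q.Prime) (h1 : m < 2 * p) (h2 : p + 4 ≤ q) (h3 : q ≤ m) :
    ∀ x y : alternatingGroup (Fin m), orderOf x = p → orderOf y = q → Concl m x y := by
  refine core hCT hR m p q hp hq (by omega) (by omega) ?_
  intro s x' y' ex ey hFull hy hx
  rcases hx with hx | ⟨h, _⟩
  · have hc1 := le_card_of_cycleType hy
    have hc2 := card_coe_le m s
    exact disp_A hA hF x' y' p q hp hq (by omega) ex ey hFull hx hy (by omega) (by omega)
  · omega

/-- `m = 14`, `(p, q) = (7, 11)`. -/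
theorem case14 (hCT : PkgCT) (hR : PkgRestr) (hF : PkgFin.{0}) (hA : PkgCaseA.{0})
    (hB : PkgCaseB.{0}) :
    ∀ x y : alternatingGroup (Fin 14), orderOf x = 7 → orderOf y = 11 → Concl 14 x y := by
  refine core hCT hR 14 7 11 (by norm_num) (by norm_num) (by norm_num) (by norm_num) ?_
  intro s x' y' ex ey hFull hy hx
  have hc2 := card_coe_le 14 s
  rcases hx with hx | ⟨_, hx⟩
  · have hc1 := le_card_of_cycleType hy
    exact disp_A hA hF x' y' 7 11 (by norm_num) (by norm_num) (by norm_num) ex ey hFull hx hy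
      (by omega) (by omega)
  · have hc1 := le_card_of_cycleType2 hx
    exact disp_B hB hF x' y' 7 11 (by norm_num) (by norm_num) (by norm_num) ex ey hx hy
      (by omega) (by omega)

/-- `7 ≤ m ≤ 10`, `(p, q) = (5, 7)`. -/
theorem case57 (hCT : PkgCT) (hR : PkgRestr) (hF : PkgFin.{0}) (hA : PkgCaseA.{0})
    (hB : PkgCaseB.{0}) (h7 : PkgCaseT7.{0}) (m : ℕ) (hm7 : 7 ≤ m) (hm10 : m ≤ 10) :
    ∀ x y : alternatingGroup (Fin m), orderOf x = 5 → orderOf y = 7 → Concl m x y := by
  refine core hCT hR m 5 7 (by norm_num) (by norm_num) (by norm_num) (by omega) ?_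
  intro s x' y' ex ey hFull hy hx
  have hc2 := card_coe_le m s
  rcases hx with hx | ⟨hm, hx⟩
  · have hc1 := le_card_of_cycleType hy
    by_cases h8 : 8 ≤ Fintype.card ↥s
    · exact disp_A hA hF x' y' 5 7 (by norm_num) (by norm_num) (by norm_num) ex ey hFull hx hy
        (by omega) (by omega)
    · have hc : Fintype.card ↥s = 7 := by omega
      exact ⟨Fintype.card ↥s, by omega, hF x' y' ex ey (h7 x' y' hc hx hy)⟩
  · have hc1 := le_card_of_cycleType2 hx
    exact disp_B hB hF x' y' 5 7 (by norm_num) (by norm_num) (by norm_num) ex ey hx hy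
      (by omega) (by omega)

/-- `15 ≤ m ≤ 16`, `(p, q) = (11, 13)`. -/
theorem case1113 (hCT : PkgCT) (hR : PkgRestr) (hF : PkgFin.{0}) (hA : PkgCaseA.{0})
    (h13 : PkgCaseT13.{0}) (m : ℕ) (hm15 : 15 ≤ m) (hm16 : m ≤ 16) :
    ∀ x y : alternatingGroup (Fin m), orderOf x = 11 → orderOf y = 13 → Concl m x y := by
  refine core hCT hR m 11 13 (by norm_num) (by norm_num) (by norm_num) (by omega) ?_
  intro s x' y' ex ey hFull hy hx
  have hc2 := card_coe_le m s
  rcases hx with hx | ⟨hm, hx⟩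
  · have hc1 := le_card_of_cycleType hy
    by_cases h14 : 14 ≤ Fintype.card ↥s
    · exact disp_A hA hF x' y' 11 13 (by norm_num) (by norm_num) (by norm_num) ex ey hFull hx hy
        (by omega) (by omega)
    · have hc : Fintype.card ↥s = 13 := by omega
      exact ⟨Fintype.card ↥s, by omega, hF x' y' ex ey (h13 x' y' hc hx hy)⟩
  · omega

/-- `5 ≤ m ≤ 6`, `(p, q) = (3, 5)`. -/
theorem case35 (hCT : PkgCT) (hR : PkgRestr) (hF : PkgFin.{0}) (h3 : PkgCase3.{0})
    (h6 : PkgM6.{0}) (m : ℕ) (hm5 : 5 ≤ m) (hm6 : m ≤ 6) :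
    ∀ x y : alternatingGroup (Fin m), orderOf x = 3 → orderOf y = 5 → Concl m x y := by
  refine core hCT hR m 3 5 (by norm_num) (by norm_num) (by norm_num) (by omega) ?_
  intro s x' y' ex ey hFull hy hx
  have hc2 := card_coe_le m s
  rcases hx with hx | ⟨hm, hx⟩
  · have hc1 := le_card_of_cycleType hy
    exact ⟨Fintype.card ↥s, by omega, hF x' y' ex ey (h3 x' y' hx hy hFull (by omega))⟩
  · have hc1 := le_card_of_cycleType2 hx
    exact h6 x' y' (by omega) hx hy

/-- **S4150**, from the packages. -/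
theorem s4150_of (hNT : PkgNT) (hCT : PkgCT) (hR : PkgRestr) (hF : PkgFin.{0})
    (hA : PkgCaseA.{0}) (hB : PkgCaseB.{0}) (h3 : PkgCase3.{0}) (h7 : PkgCaseT7.{0})
    (h13 : PkgCaseT13.{0}) (h6 : PkgM6.{0}) (m : ℕ) (hm : 5 ≤ m) :
    ∃ p q : ℕ, p.Prime ∧ q.Prime ∧ m ≤ 2 * p ∧ p < q ∧ q ≤ m ∧
      ∀ x y : alternatingGroup (Fin m), orderOf x = p → orderOf y = q →
        ∃ d : ℕ, 5 ≤ d ∧ Nonempty (Subgroup.closure ({x, y} : Set (alternatingGroup (Fin m))) ≃*
          alternatingGroup (Fin d)) := by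
  by_cases h17 : 17 ≤ m
  · obtain ⟨p, q, hp, hq, h1, h2, h3'⟩ := hNT m h17
    exact ⟨p, q, hp, hq, by omega, by omega, h3', caseGen hCT hR hF hA m p q hp hq h1 h2 h3'⟩
  · by_cases h15 : 15 ≤ m
    · exact ⟨11, 13, by norm_num, by norm_num, by omega, by norm_num, by omega,
        case1113 hCT hR hF hA h13 m h15 (by omega)⟩
    · by_cases h14 : m = 14
      · subst h14
        exact ⟨7, 11, by norm_num, by norm_num, by norm_num, by norm_num, by norm_num,
          case14 hCT hR hF hA hB⟩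
      · by_cases h11 : 11 ≤ m
        · exact ⟨7, 11, by norm_num, by norm_num, by omega, by norm_num, by omega,
            caseGen hCT hR hF hA m 7 11 (by norm_num) (by norm_num) (by omega) (by norm_num)
              (by omega)⟩
        · by_cases h7' : 7 ≤ m
          · exact ⟨5, 7, by norm_num, by norm_num, by omega, by norm_num, by omega,
              case57 hCT hR hF hA hB h7 m h7' (by omega)⟩
          · exact ⟨3, 5, by norm_num, by norm_num, by omega, by norm_num, by omega,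
              case35 hCT hR hF h3 h6 m hm (by omega)⟩

end Cfsg.Agent.Lib.Helper69.APQ
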