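import Cfsg.Agent.Lib.Helper69.APQ.Defs

/-!
# APQ: [NTASM] assembly of the number theory
-/

set_option autoImplicit false

namespace Cfsg.Agent.Lib.Helper69.APQ

/-- [NTBIG] from [NTINEQ] and [NTBINOM]. -/
theorem pkgNTBig_of (hI : PkgNTIneq) (hB : PkgNTBinom) : PkgNTBig := by
  intro n hn
  by_contra hcon
  have h3 : ∀ p₁ p₂ p₃ : ℕ, p₁.Prime → p₂.Prime → p₃.Prime → n < p₁ → p₁ < p₂ → p₂ < p₃ →
      p₃ ≤ 2 * n → False := by
    intro p₁ p₂ p₃ h1 h2 h3 h4 h5 h6 h7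
    exact hcon ⟨p₁, p₂, p₃, h1, h2, h3, h4, h5, h6, h7⟩
  have hb := hB n (by omega) h3
  have hi := hI n hn
  have h4 := Nat.four_pow_lt_mul_centralBinom n (by omega)
  have : n * Nat.centralBinom n ≤
      n * ((2 * n) ^ Nat.sqrt (2 * n) * 4 ^ (2 * n / 3) * (2 * n) ^ 2) :=
    Nat.mul_le_mul_left n hb
  omega

/-- [NT] from [NTSMALL] and [NTBIG]. -/
theorem pkgNT_of_big (hS : PkgNTSmall) (hG : PkgNTBig) : PkgNT := by
  intro m hm
  by_cases hlt : m < 4100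
  · exact hS m hm hlt
  · obtain ⟨p₁, p₂, p₃, h1, h2, h3, h4, h5, h6, h7⟩ := hG (m / 2) (by omega)
    have o1 : Odd p₁ := h1.odd_of_ne_two (by omega)
    have o2 : Odd p₂ := h2.odd_of_ne_two (by omega)
    have o3 : Odd p₃ := h3.odd_of_ne_two (by omega)
    obtain ⟨a, ha⟩ := o1
    obtain ⟨b, hb⟩ := o2
    obtain ⟨c, hc⟩ := o3
    refine ⟨p₁, p₃, h1, h3, by omega, by omega, by omega⟩

/-- [NTASM] -/
theorem pkgNT_of (hS : PkgNTSmall) (hI : PkgNTIneq) (hB : PkgNTBinom) : PkgNT :=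
  pkgNT_of_big hS (pkgNTBig_of hI hB)

end Cfsg.Agent.Lib.Helper69.APQ
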